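import Cfsg.Agent.H87.OC.DRoot
import Cfsg.Agent.S1061
import Cfsg.Agent.S1027
import Cfsg.Agent.H993.OC.RootRow
import Cfsg.Agent.H993.OC.Field

/-!
# S4891 (R11): the root datum of `D₄` (helper87)

`dat` : the `RootDat` of the highest root group of `chevD4.group K`.
-/

set_option autoImplicit false

open Cfsg
open scoped commutatorElement

namespace Cfsg.Agent.H87.OC

open Cfsg.Lie
open Cfsg.Agent.ChevalleyStructure.D4Comm Cfsg.Agent.ChevalleyStructure.D4NCheck
open Cfsg.Agent.ChevalleyStructure.D4NConj Cfsg.Agent.ChevalleyStructure.D4RGD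
open Cfsg.Agent.ChevalleyStructure Cfsg.Agent.H993.OC Cfsg.Agent.ChevalleyStructure.SparseHDiag

variable (K : Type*) [Field K]

/-- the group -/
abbrev SG := ↥(chevD4.group K)

theorem U_le_G : chevD4.posUnipotent K ≤ chevD4.group K := by
  rw [← d4rgd_G, ← d4rgd_U]
  exact (d4rgd K).U_le_B.trans (d4rgd K).B_le_G

theorem B_le_G : chevD4.borelSubgroup K ≤ chevD4.group K := by
  rw [← d4rgd_G, ← d4rgd_B]
  exact (d4rgd K).B_le_G

theorem N_le_G : chevD4.monomialSubgroup K ≤ chevD4.group K := by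
  rw [← d4rgd_G, ← d4rgd_N]
  exact (d4rgd K).N_le_G

theorem H_le_B : chevD4.diagonalSubgroup K ≤ chevD4.borelSubgroup K := le_sup_right

/-- the highest root group -/
def XS : Subgroup (SG K) := (chevD4.rootSubgroup K 23).subgroupOf (chevD4.group K)

/-- the unipotent subgroup -/
def US : Subgroup (SG K) := (chevD4.posUnipotent K).subgroupOf (chevD4.group K)

variable {K}

/-- its elements -/
def xS (a : K) : SG K := ⟨xG 23 a, xG_mem_group 23 a⟩

theorem coe_xS (a : K) : ((xS a : SG K) : GL chevD4.Idx K) = xG 23 a := rfl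

theorem mem_XS (s : SG K) : s ∈ XS K ↔ ∃ a, xS a = s := by
  change (s : GL chevD4.Idx K) ∈ chevD4.rootSubgroup K 23 ↔ _
  rw [mem_rootSubgroup]
  constructor
  · rintro ⟨t, ht⟩
    exact ⟨t, Subtype.ext ht.symm⟩
  · rintro ⟨t, rfl⟩
    exact ⟨t, rfl⟩

theorem xS_add (a b : K) : (xS (a + b) : SG K) = xS a * xS b := Subtype.ext (xG_add 23 a b)

theorem xG_inj {a b : K} (h : (xG 23 a : GL chevD4.Idx K) = xG 23 b) : a = b := by
  have h1 : (xG 23 (a - b) : GL chevD4.Idx K) = 1 := by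
    rw [sub_eq_add_neg, xG_add, xG_neg, h, mul_inv_cancel]
  rw [xG_eq_one_iff (by norm_num)] at h1
  exact sub_eq_zero.1 h1

theorem xS_inj : Function.Injective (xS : K → SG K) := fun _ _ h => xG_inj (congrArg Subtype.val h)

theorem XS_eq : Lc (US K) 4 = XS K := by
  have h1 : (US K).map (chevD4.group K).subtype = chevD4.posUnipotent K := by
    unfold US
    rw [Subgroup.subgroupOf_map_subtype, inf_eq_left]
    exact U_le_G K
  ext s
  rw [mem_XS]
  have h2 : s ∈ Lc (US K) 4 ↔ (s : GL chevD4.Idx K) ∈ (Lc (US K) 4).map (chevD4.group K).subtype := by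
    constructor
    · intro h
      exact ⟨s, h, rfl⟩
    · rintro ⟨t, ht, e⟩
      have : t = s := Subtype.ext e
      rwa [← this]
  rw [h2, map_Lc, h1, Lc_four]
  constructor
  · rintro ⟨t, ht⟩
    exact ⟨t, Subtype.ext ht⟩
  · rintro ⟨t, rfl⟩
    exact ⟨t, rfl⟩

theorem XS_le : XS K ≤ US K := by
  intro s hs
  obtain ⟨a, rfl⟩ := (mem_XS s).1 hs
  exact xG_mem_U (by norm_num) (by norm_num) a

theorem XS_char (α : MulAut (SG K)) (h : (US K).map α.toMonoidHom = US K) : (XS K).map α.toMonoidHom = XS K := by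
  rw [← XS_eq, map_Lc, h]

/-! ### the normaliser -/

variable (K)

/-- the normaliser of the highest root group -/
def PS : Subgroup (SG K) := Subgroup.normalizer (XS K : Set (SG K))

variable {K}

theorem mem_PS (g : SG K) : g ∈ PS K ↔ (XS K).map (MulAut.conj g).toMonoidHom = XS K := by
  unfold PS
  rw [Subgroup.mem_normalizer_iff]
  constructor
  · intro h
    ext s
    rw [Subgroup.mem_map]
    constructor
    · rintro ⟨t, ht, rfl⟩
      exact (h t).1 ht
    · intro hs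
      refine ⟨g⁻¹ * s * g, (h _).2 ?_, ?_⟩
      · have : g * (g⁻¹ * s * g) * g⁻¹ = s := by group
        rwa [this]
      · change g * (g⁻¹ * s * g) * g⁻¹ = s
        group
  · intro h s
    constructor
    · intro hs
      rw [← h]
      exact ⟨s, hs, rfl⟩
    · intro hs
      rw [← h] at hs
      obtain ⟨t, ht, e⟩ := hs
      have : t = s := (MulAut.conj g).injective e
      rwa [← this]

theorem mem_PS_of {g : SG K} {v : Kˣ} (h : ∀ a : K, g * xS a * g⁻¹ = xS (v * a)) : g ∈ PS K := by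
  rw [mem_PS]
  ext s
  rw [Subgroup.mem_map, mem_XS]
  constructor
  · rintro ⟨t, ht, rfl⟩
    obtain ⟨a, rfl⟩ := (mem_XS t).1 ht
    exact ⟨_, (h a).symm⟩
  · rintro ⟨a, rfl⟩
    refine ⟨xS (((v⁻¹ : Kˣ) : K) * a), (mem_XS _).2 ⟨_, rfl⟩, ?_⟩
    change g * xS _ * g⁻¹ = _
    rw [h, Units.mul_inv_cancel_left]

theorem mem_PS_of_B {g : SG K} (h : (g : GL chevD4.Idx K) ∈ chevD4.borelSubgroup K) : g ∈ PS K := by
  obtain ⟨v, hv⟩ := conj_of_mem_B h
  exact mem_PS_of (v := v) fun a => Subtype.ext (hv a)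

theorem not_mem_PS {n : SG K} {r : ℕ} (hr : r < 24) (hne : r ≠ 23) {v : Kˣ}
    (h : ∀ t : K, (n : GL chevD4.Idx K) * xG 23 t * (n : GL chevD4.Idx K)⁻¹ = xG r (v * t)) : n ∉ PS K := by
  intro hn
  rw [mem_PS] at hn
  have h1 : n * xS 1 * n⁻¹ ∈ XS K := by
    have h0 : n * xS 1 * n⁻¹ ∈ (XS K).map (MulAut.conj n).toMonoidHom := ⟨xS 1, (mem_XS _).2 ⟨1, rfl⟩, rfl⟩
    rwa [hn] at h0
  obtain ⟨a, ha⟩ := (mem_XS _).1 h1
  have h2 : (xG 23 a : GL chevD4.Idx K) = (n : GL chevD4.Idx K) * xG 23 1 * (n : GL chevD4.Idx K)⁻¹ :=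
    congrArg Subtype.val ha
  rw [h, mul_one] at h2
  exact hne (D4Perm.eq_of_xG_eq hr (by norm_num) v.ne_zero h2.symm)

/-- Bruhat decomposition with the action on the highest root group -/
theorem dicho (g : SG K) : ∃ b n b' : SG K, (b : GL chevD4.Idx K) ∈ chevD4.borelSubgroup K ∧
    (n : GL chevD4.Idx K) ∈ chevD4.monomialSubgroup K ∧ (b' : GL chevD4.Idx K) ∈ chevD4.borelSubgroup K ∧
    g = b * n * b' ∧ ∃ r, r < 24 ∧ ∃ v : Kˣ, ∀ t : K,
      (n : GL chevD4.Idx K) * xG 23 t * (n : GL chevD4.Idx K)⁻¹ = xG r (v * t) := by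
  obtain ⟨b, hb, n, hn, b', hb', e⟩ := bruhat g.2
  exact ⟨⟨b, B_le_G K hb⟩, ⟨n, N_le_G K hn⟩, ⟨b', B_le_G K hb'⟩, hb, hn, hb', Subtype.ext e,
    conj_of_mem_N hn (by norm_num)⟩

theorem exists_scalar (g : PS K) : ∃ v : Kˣ, ∀ a : K, (g : SG K) * xS a * (g : SG K)⁻¹ = xS (v * a) := by
  obtain ⟨g, hg⟩ := g
  obtain ⟨b, n, b', hb, hn, hb', rfl, r, hr, v, hv⟩ := dicho g
  have hnP : n ∈ PS K := by
    have h1 := mul_mem (mul_mem (inv_mem (mem_PS_of_B hb)) hg) (inv_mem (mem_PS_of_B hb'))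
    have e : b⁻¹ * (b * n * b') * b'⁻¹ = n := by group
    rwa [e] at h1
  obtain rfl : r = 23 := by
    by_contra hne
    exact not_mem_PS hr hne hv hnP
  obtain ⟨v₁, h₁⟩ := conj_of_mem_B hb
  obtain ⟨v₂, h₂⟩ := conj_of_mem_B hb'
  refine ⟨v₁ * v * v₂, fun a => Subtype.ext ?_⟩
  obtain ⟨b, hbG⟩ := b
  obtain ⟨n, hnG⟩ := n
  obtain ⟨b', hbG'⟩ := b'
  change (b * n * b') * xG 23 a * (b * n * b')⁻¹ = xG 23 _
  have e : (b * n * b') * xG 23 a * (b * n * b')⁻¹ = b * (n * (b' * xG 23 a * b'⁻¹) * n⁻¹) * b⁻¹ := by group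
  rw [e, h₂, hv, h₁]
  congr 1
  push_cast
  ring

/-- the scalar of an element of the normaliser -/
noncomputable def mu (g : PS K) : Kˣ := (exists_scalar g).choose

theorem mu_spec (g : PS K) (a : K) : (g : SG K) * xS a * (g : SG K)⁻¹ = xS (mu g * a) := (exists_scalar g).choose_spec a

theorem mu_eq {g : PS K} {v : Kˣ} (h : (g : SG K) * xS 1 * (g : SG K)⁻¹ = xS (v : K)) : mu g = v := by
  have h1 := mu_spec g 1
  rw [h, mul_one] at h1
  exact Units.ext (xS_inj h1).symm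

variable (K)

/-- the scalars -/
noncomputable def muHom : PS K →* Kˣ := MonoidHom.mk' mu fun g h => by
  refine mu_eq ?_
  have e : ((g * h : PS K) : SG K) * xS 1 * ((g * h : PS K) : SG K)⁻¹ =
      (g : SG K) * ((h : SG K) * xS 1 * (h : SG K)⁻¹) * (g : SG K)⁻¹ := by
    rw [Subgroup.coe_mul]
    group
  rw [e, mu_spec, mu_spec, mul_one]
  rfl

variable {K}

theorem cartan_14 : cartanRS chevD4 14 23 = 1 := by decide +kernel
theorem cartan_23 : cartanRS chevD4 23 23 = 2 := by decide +kernel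
theorem cartan_r : ∀ r ∈ List.range 24, r ≠ 23 → cartanRS chevD4 23 r ∈ ([1, 0, -1, -2] : List ℤ) := by decide +kernel

theorem hR_mem_B {r : ℕ} (hr : r < 24) (c : Kˣ) : hR r (c : K) ∈ chevD4.borelSubgroup K :=
  H_le_B K (hR_mem hr c.ne_zero)

theorem exists_mu (c : Kˣ) : ∃ g : PS K, mu g = c := by
  refine ⟨⟨⟨hR 14 (c : K), hR_mem_group 14 _⟩, mem_PS_of_B (hR_mem_B (by norm_num) c)⟩, ?_⟩
  refine mu_eq (Subtype.ext ?_)
  change hR 14 (c : K) * xG 23 1 * (hR 14 (c : K))⁻¹ = xG 23 (c : K)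
  rw [D4HConj.hR_conj (by norm_num) (by norm_num) c.ne_zero, cartan_14, zpow_one, mul_one]

section fin

variable [Fintype K] {p : ℕ} [hp : Fact p.Prime] [CharP K p]

theorem card_US : Nat.card (US K) = Nat.card K ^ 12 := by
  have h1 : Nat.card (US K) = Nat.card (chevD4.posUnipotent K) :=
    Nat.card_congr (Subgroup.subgroupOfEquivOfLe (U_le_G K)).toEquiv
  rw [h1, Cfsg.Agent.S1027.result chevD4 (by simp), Nat.card_eq_fintype_card]
  rfl

omit hp in
theorem dvd_card : p ∣ Nat.card K := by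
  obtain ⟨n, -, hn⟩ := FiniteField.card K p
  rw [Nat.card_eq_fintype_card, hn]
  exact dvd_pow_self p n.2.ne'

omit hp in
theorem dvd_sub_one {q : ℕ} (h : p ∣ q) (hq : 0 < q) {k : ℕ} (hk : k ≠ 0) (hp1 : 1 < p) : ¬ p ∣ q ^ k - 1 := by
  intro h1
  have h2 : p ∣ q ^ k := h.trans (dvd_pow_self q hk)
  have h3 : 1 ≤ q ^ k := Nat.one_le_pow _ _ hq
  have h4 := Nat.dvd_sub h2 h1
  rw [Nat.sub_sub_self h3] at h4
  have := Nat.le_of_dvd one_pos h4
  omega

theorem index_US : ¬ p ∣ (US K).index := by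
  have hq := Cfsg.Agent.S1061.result (F := K) rfl
  have hp1 : 1 < p := hp.out.one_lt
  rw [← Nat.card_eq_fintype_card] at hq
  have h1 := (US K).card_mul_index
  rw [card_US] at h1
  rw [← h1] at hq
  have hq0 : 0 < Nat.card K := Nat.card_pos
  have h2 : Nat.gcd 2 (Nat.card K - 1) ^ 2 * (US K).index =
      (Nat.card K ^ 2 - 1) * (Nat.card K ^ 4 - 1) * (Nat.card K ^ 4 - 1) * (Nat.card K ^ 6 - 1) := by
    have h3 : 0 < Nat.card K ^ 12 := pow_pos hq0 _
    apply Nat.eq_of_mul_eq_mul_left h3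
    calc _ = Nat.gcd 2 (Nat.card K - 1) ^ 2 * (Nat.card K ^ 12 * (US K).index) := by ring
      _ = _ := hq
      _ = _ := by ring
  intro h
  have h3 : p ∣ (Nat.card K ^ 2 - 1) * (Nat.card K ^ 4 - 1) * (Nat.card K ^ 4 - 1) * (Nat.card K ^ 6 - 1) := by
    rw [← h2]
    exact Dvd.dvd.mul_left h _
  have hd : p ∣ Nat.card K := dvd_card
  rcases (Nat.Prime.dvd_mul hp.out).1 h3 with h3 | h3
  · rcases (Nat.Prime.dvd_mul hp.out).1 h3 with h3 | h3
    · rcases (Nat.Prime.dvd_mul hp.out).1 h3 with h3 | h3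
      · exact dvd_sub_one hd hq0 (by norm_num) hp1 h3
      · exact dvd_sub_one hd hq0 (by norm_num) hp1 h3
    · exact dvd_sub_one hd hq0 (by norm_num) hp1 h3
  · exact dvd_sub_one hd hq0 (by norm_num) hp1 h3

variable (K p)

omit hp in
theorem isPGroup_US : IsPGroup p (US K) := by
  obtain ⟨n, -, hn⟩ := FiniteField.card K p
  refine IsPGroup.of_card (n := n * 12) ?_
  rw [card_US, Nat.card_eq_fintype_card, hn, ← pow_mul]

/-- the Sylow subgroup -/
noncomputable def US' : Sylow p (SG K) := (isPGroup_US K p).toSylow index_US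

theorem coe_US' : ((US' K p : Sylow p (SG K)) : Subgroup (SG K)) = US K := rfl

/-- **the root datum** -/
noncomputable def dat : RootDat p (SG K) K where
  U := US' K p
  ξ := xS
  ξ_add := xS_add
  ξ_inj := xS_inj
  X := XS K
  mem_X := mem_XS
  X_le := XS_le
  hchar α h := XS_char α h
  P := PS K
  mem_P := mem_PS
  μ := muHom K
  hμ := mu_spec
  hgen R h := by
    rw [eq_top_iff]
    intro x _
    by_cases hx : x = 0
    · rw [hx]
      exact R.zero_mem
    · obtain ⟨g, hg⟩ := exists_mu (Units.mk0 x hx)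
      have h1 := h g
      change ((mu g : Kˣ) : K) ∈ R at h1
      rwa [hg] at h1

end fin

end Cfsg.Agent.H87.OC
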