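import Cfsg.Agent.H287.OC.D4Defs
import Cfsg.Agent.H76.OC.AutP
import Cfsg.Agent.H87.OC.DDat
import Cfsg.Agent.H129.TriD4
import Cfsg.Agent.KFacts.RgdRigid

/-!
# S4891 (R12): automorphisms of `D₄` (helper87)

* `U4_eq`, `X4_th` : the unipotent subgroup and the highest root group in the two notations;
* `fix_three` : (P1) a 3-automorphism fixing `U` fixes `B`, `P_{1}`, `P_{0,2,3}` and the highest root group;
* `exists_triality` : (P2) an automorphism of order 3 of the frame.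
-/

set_option autoImplicit false
set_option linter.unusedSectionVars false

open Cfsg Cfsg.Lie

namespace Cfsg.Agent.H87.OC

open CoxeterSystem Cfsg.Agent.ChevalleyStructure.CoxeterGeom Cfsg.Agent.Tits.Roots Cfsg.Agent.Tits.Core
  Cfsg.Agent.Nodes.Reps Cfsg.Agent.Nodes.BNOf Cfsg.Agent.Nodes.StabComb Cfsg.Agent.Nodes.Bruhat
  Cfsg.Agent.Nodes.LeviDec Cfsg.Agent.Nodes.RGDChev Cfsg.Agent.ChevalleyStructure.CoxeterGeomTypes
  Cfsg.Agent.KFacts.RgdAut Cfsg.Agent.KFacts.RgdDiag Cfsg.Agent.KFacts.RgdChevCoord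
open Cfsg.Agent.H287.OC
open Cfsg.Agent.H129.TriD4 (gam tri fr_gam tri_sr isRoot_tri tri_three coe_gam coe_gam_inv)

universe u

variable (K : Type u) [Field K] [Finite K]

theorem nonneg_vec : ∀ r : Fin 24, (∀ i, 0 ≤ vec chevD4 4 r i) ↔ 12 ≤ r.val := by decide +kernel

theorem X4_vec {r : ℕ} (hr : r < 24) : X4 K (vec chevD4 4 r) = (chevD4.rootSubgroup K r).subgroupOf (chevD4.group K) := by
  unfold X4 XX
  rw [XV_vec hp4 K (show r < chevD4.nroots from hr)]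

theorem X4_th : X4 K th = XS K := by
  have h1 : th = vec chevD4 4 23 := funext (by decide +kernel)
  rw [h1, X4_vec K (by norm_num)]
  rfl

theorem U4_eq : U4 K = US K := by
  apply le_antisymm
  · refine RGD.Sup_le ?_
    rintro x ⟨hx, hx0⟩
    obtain ⟨r, hr, rfl⟩ := (isRoot_iff hp4 cs4 x).1 hx
    have hr' : r < 24 := hr
    have h12 : 12 ≤ r := (nonneg_vec ⟨r, hr'⟩).1 hx0
    rw [X4_vec K hr']
    intro s hs
    obtain ⟨t, ht⟩ := (Cfsg.Agent.ChevalleyStructure.D4RGD.mem_rootSubgroup).1 hs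
    change (s : GL chevD4.Idx K) = _ at ht
    change (s : GL chevD4.Idx K) ∈ chevD4.posUnipotent K
    rw [ht]
    exact xG_mem_U h12 hr' t
  · intro s hs
    have h1 : chevD4.posUnipotent K ≤ (U4 K).map (chevD4.group K).subtype := by
      rw [← closure_GS_one, Subgroup.closure_le]
      rintro g ⟨r, h12, h24, -, t, rfl⟩
      refine ⟨⟨_, U_le_G K (xG_mem_U h12 h24 t)⟩, ?_, rfl⟩
      refine RGD.le_Sup (X := X4 K) (S := RGD.Pos cs4 hp4.isCartan) (z := vec chevD4 4 r)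
        ⟨(isRoot_iff hp4 cs4 _).2 ⟨r, h24, rfl⟩, (nonneg_vec ⟨r, h24⟩).2 h12⟩ ?_
      rw [X4_vec K h24]
      exact Cfsg.Agent.ChevalleyStructure.D4RGD.xG_mem_rootSubgroup r t
    obtain ⟨t, ht, e⟩ := h1 hs
    have : t = s := Subtype.ext e
    rwa [← this]

theorem GG4 : GG cs4 hp4.isCartan (T4 K) (X4 K) = ⊤ := Cfsg.Agent.KFacts.RgdRigid.GG_eq_top (G1_eq_top hp4 cs4)

theorem perm_one : ∀ σ : Equiv.Perm (Fin 4),
    (∀ i : Fin 4, ∀ j : Fin 4, (σ i ≠ σ j ∧ coxeterD4.M (σ i) (σ j) ≠ 2) ↔ (i ≠ j ∧ coxeterD4.M i j ≠ 2)) →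
      σ 1 = 1 := by
  have h : ∀ σ : Equiv.Perm (Fin 4),
      decide (∀ i : Fin 4, ∀ j : Fin 4, decide (σ i ≠ σ j ∧ coxeterD4.M (σ i) (σ j) ≠ 2) =
        decide (i ≠ j ∧ coxeterD4.M i j ≠ 2)) = true → σ 1 = 1 := by decide +kernel
  intro σ hσ
  exact h σ (decide_eq_true fun i j => decide_eq_decide.2 (hσ i j))

/-- **(P1)** -/
theorem fix_three {p : ℕ} [Fact p.Prime] [CharP K p] {α : MulAut ↥(chevD4.group K)} (hU : Fix α (U4 K)) {k : ℕ}
    (_hk : α ^ 3 ^ k = 1) : Fix α (RGD.B cs4 hp4.isCartan (T4 K) (X4 K)) ∧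
      Fix α (PJ cs4 hp4.isCartan (T4 K) (X4 K) {1}) ∧ Fix α (PJ cs4 hp4.isCartan (T4 K) (X4 K) {0, 2, 3}) ∧
      Fix α (X4 K th) := by
  have hfW : Finite coxeterD4.Group := finite_W hp4 cs4
  have hfY : Finite ↥(chevD4.group K) := inferInstance
  have R := R4 K p
  have hB := fix_B R (GG4 K) hU
  obtain ⟨σ, h1, -, h3⟩ := Cfsg.Agent.H76.OC.exists_perm_PJ R (GG4 K) (fix_iff.1 hB)
  have hσ := perm_one σ h1
  refine ⟨hB, ?_, ?_, ?_⟩
  · rw [fix_iff, h3, Set.image_singleton, hσ]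
  · rw [fix_iff, h3]
    have hset : ({0, 2, 3} : Set (Fin 4)) = {1}ᶜ := by
      ext i
      fin_cases i <;> simp
    rw [hset, Set.image_compl_eq σ.bijective, Set.image_singleton, hσ]
  · rw [fix_iff, X4_th]
    exact XS_char α (by rw [← U4_eq]; exact fix_iff.1 hU)

theorem tri_rot (i : Fin 4) : tri (sr i) = sr (rot i) := by
  rw [show rot i = (![2, 1, 3, 0] : Fin 4 → Fin 4) i by revert i; decide]
  exact funext (tri_sr i)

theorem tri_nonneg {x : Fin 4 → ℤ} (hx : 0 ≤ x) : 0 ≤ tri x := by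
  rw [Cfsg.Agent.H129.TriD4.tri_apply]
  intro i
  fin_cases i
  · exact hx 3
  · exact hx 1
  · exact hx 0
  · exact hx 2

/-- **(P2)** -/
theorem exists_triality {p : ℕ} [Fact p.Prime] [CharP K p] : ∃ τ : MulAut ↥(chevD4.group K), τ ^ 3 = 1 ∧
    Fix τ (U4 K) ∧ Diag (T4 K) (X4 K) τ rot := by
  have F := fr_gam (k := K) cs4
  have h3 : gam K ^ 3 = 1 := by
    ext g
    have e1 : (gam K ^ 3) g = gam K (gam K (gam K g)) := by
      rw [pow_succ, pow_succ, pow_one]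
      rfl
    rw [e1, coe_gam, coe_gam, coe_gam, Cfsg.Agent.H129.TriD4.sig_one_cube g.2]
    rfl
  refine ⟨gam K, h3, ?_, ?_⟩
  · have hle : U4 K ≤ (U4 K).comap (gam K).toMonoidHom := by
      refine RGD.Sup_le ?_
      rintro x ⟨hx, hx0⟩ s hs
      exact RGD.le_Sup (X := X4 K) (S := RGD.Pos cs4 hp4.isCartan) (z := tri x) ⟨isRoot_tri cs4 x hx, tri_nonneg hx0⟩
        ((F.map x hx s).2 hs)
    intro x
    constructor
    · intro hx
      have e1 : (gam K ^ 3) x = gam K (gam K (gam K x)) := by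
        rw [pow_succ, pow_succ, pow_one]
        rfl
      rw [h3] at e1
      have e2 : x = gam K (gam K (gam K x)) := e1
      rw [e2]
      exact hle (hle hx)
    · intro hx
      exact hle hx
  · refine ⟨F.tor, fun i x => ?_, fun i x => ?_⟩
    · rw [← tri_rot]
      exact F.map _ (isRoot_sr cs4 hp4.isCartan i) x
    · rw [← tri_rot, ← map_neg]
      exact F.map _ (isRoot_sr cs4 hp4.isCartan i).neg x

end Cfsg.Agent.H87.OC
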