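import Cfsg.Agent.H87.OC.Lower
import Cfsg.Agent.ChevalleyStructure.D4Perm
import Cfsg.Agent.ChevalleyStructure.D4HConj
import Cfsg.Agent.S0308

/-!
# S4891 (R11): the highest root group of `D₄` (helper87)

* `Lc_four` : the fifth term of the descending central series of `U` is the root group of the highest root;
* `conj_of_mem_B`, `conj_of_mem_N` : the action of `B` and `N` on the root groups.
-/

set_option autoImplicit false

open Cfsg
open scoped commutatorElement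

namespace Cfsg.Agent.H87.OC

open Cfsg.Lie
open Cfsg.Agent.ChevalleyStructure.D4Comm Cfsg.Agent.ChevalleyStructure.D4NCheck
open Cfsg.Agent.ChevalleyStructure.D4NConj Cfsg.Agent.ChevalleyStructure.D4RGD
open Cfsg.Agent.ChevalleyStructure

variable (F : Type*) [Field F]

/-- heights of the positive roots -/
def htTab : List ℕ := [1, 1, 1, 2, 2, 3, 1, 2, 3, 3, 4, 5]

/-- height of the positive root `r` (12 ≤ r < 24) -/
def hgt (r : ℕ) : ℕ := D4Tab.nth 0 htTab (r - 12)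

/-- the generators of height at least `m` -/
def GS (m : ℕ) : Set (GL chevD4.Idx F) := {g | ∃ r, 12 ≤ r ∧ r < 24 ∧ m ≤ hgt r ∧ ∃ t, g = xG r t}

variable {F}

theorem GS_inv {m : ℕ} {b : GL chevD4.Idx F} (hb : b ∈ GS F m) : b⁻¹ ∈ GS F m := by
  obtain ⟨r, h1, h2, h3, t, rfl⟩ := hb
  exact ⟨r, h1, h2, h3, -t, xG_inv r t⟩

theorem GS_mono {m n : ℕ} (h : m ≤ n) : GS F n ⊆ GS F m := fun _ ⟨r, h1, h2, h3, t, e⟩ => ⟨r, h1, h2, h.trans h3, t, e⟩

theorem cm_ht : ∀ r ∈ List.range' 12 12, ∀ s ∈ List.range' 12 12, ∀ kc ∈ D4CommTab.cm r s,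
    12 ≤ kc.1 ∧ kc.1 < 24 ∧ hgt r + hgt s ≤ hgt kc.1 := by
  decide +kernel

theorem ht_pos : ∀ r ∈ List.range' 12 12, 1 ≤ hgt r := by decide +kernel
theorem ht_five : ∀ r ∈ List.range' 12 12, 5 ≤ hgt r → r = 23 := by decide +kernel

theorem mem_range' {r : ℕ} (h1 : 12 ≤ r) (h2 : r < 24) : r ∈ List.range' 12 12 := by
  rw [List.mem_range']
  exact ⟨r - 12, by omega, by omega⟩

theorem comm_mem {m n : ℕ} {a b : GL chevD4.Idx F} (ha : a ∈ GS F m) (hb : b ∈ GS F n) :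
    ⁅a, b⁆ ∈ Subgroup.closure (GS F (m + n)) := by
  obtain ⟨r, h1, h2, h3, t, rfl⟩ := ha
  obtain ⟨s, h4, h5, h6, u, rfl⟩ := hb
  by_cases hne : s = r
  · subst hne
    have : ⁅(xG s t : GL chevD4.Idx F), xG s u⁆ = 1 := by
      rw [commutatorElement_eq_one_iff_mul_comm, ← xG_add, ← xG_add, add_comm]
    rw [this]
    exact one_mem _
  rw [xG_comm h1 h2 h4 h5 hne]
  unfold cval
  cases hcm : D4CommTab.cm r s with
  | none => exact one_mem _
  | some kc =>
    obtain ⟨h7, h8, h9⟩ := cm_ht r (mem_range' h1 h2) s (mem_range' h4 h5) kc hcm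
    exact Subgroup.subset_closure ⟨kc.1, h7, h8, by omega, _, rfl⟩

theorem GS_norm (m : ℕ) : GS F 1 ⊆ Subgroup.normalizer (Subgroup.closure (GS F m) : Set (GL chevD4.Idx F)) := by
  refine subset_normalizer (fun b hb => GS_inv hb) fun b hb a ha => ?_
  have e : b * a * b⁻¹ = ⁅b, a⁆ * a := by
    rw [commutatorElement_def]
    group
  rw [e]
  refine mul_mem ?_ (Subgroup.subset_closure ha)
  exact Subgroup.closure_mono (GS_mono (by omega)) (comm_mem hb ha)

theorem closure_GS_one : Subgroup.closure (GS F 1) = chevD4.posUnipotent F := by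
  apply le_antisymm
  · rw [Subgroup.closure_le]
    rintro g ⟨r, h1, h2, -, t, rfl⟩
    exact Subgroup.subset_closure ⟨r, t, (isPosRoot_iff _).2 ⟨h1, h2⟩, coe_xG _ _⟩
  · refine (Subgroup.closure_le _).2 ?_
    rintro g ⟨r, t, hr, hg⟩
    rw [isPosRoot_iff] at hr
    have : g = xG r t := (eq_xG_iff g r t).1 hg
    rw [this]
    exact Subgroup.subset_closure ⟨r, hr.1, hr.2, ht_pos r (mem_range' hr.1 hr.2), t, rfl⟩

theorem Lc_le (k : ℕ) : Lc (chevD4.posUnipotent F) k ≤ Subgroup.closure (GS F (k + 1)) := by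
  induction k with
  | zero => exact closure_GS_one.ge
  | succ k ih =>
    change ⁅Lc (chevD4.posUnipotent F) k, chevD4.posUnipotent F⁆ ≤ _
    refine (Subgroup.commutator_mono ih closure_GS_one.ge).trans ?_
    exact commutator_closure_le ((GS_mono (by omega)).trans (GS_norm _)) (GS_norm _)
      fun a ha b hb => comm_mem ha hb

theorem xG_mem_U {r : ℕ} (h1 : 12 ≤ r) (h2 : r < 24) (t : F) : xG r t ∈ chevD4.posUnipotent F :=
  Subgroup.subset_closure ⟨r, t, (isPosRoot_iff _).2 ⟨h1, h2⟩, coe_xG _ _⟩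

theorem step {r s k : ℕ} {e : ℤ} (h1 : 12 ≤ r) (h2 : r < 24) (h3 : 12 ≤ s) (h4 : s < 24) (hne : s ≠ r)
    (hcm : D4CommTab.cm r s = some (k, e)) (he : e = 1 ∨ e = -1) {j : ℕ}
    (h : ∀ t : F, xG r t ∈ Lc (chevD4.posUnipotent F) j) (t : F) : xG k t ∈ Lc (chevD4.posUnipotent F) (j + 1) := by
  have e1 : (xG k t : GL chevD4.Idx F) = ⁅(xG r ((e : F) * t) : GL chevD4.Idx F), xG s 1⁆ := by
    rw [xG_comm h1 h2 h3 h4 hne]
    unfold cval
    rw [hcm]
    change xG k t = xG k ((e : F) * ((e : F) * t * 1))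
    congr 1
    rcases he with rfl | rfl
    · push_cast; ring
    · push_cast; ring
  rw [e1]
  exact Subgroup.commutator_mem_commutator (h _) (xG_mem_U h3 h4 1)

theorem cm_chain : ∃ e₁ e₂ e₃ e₄ : ℤ, D4CommTab.cm 18 14 = some (19, e₁) ∧ D4CommTab.cm 19 12 = some (20, e₂) ∧
    D4CommTab.cm 20 13 = some (22, e₃) ∧ D4CommTab.cm 22 14 = some (23, e₄) ∧
    (e₁ = 1 ∨ e₁ = -1) ∧ (e₂ = 1 ∨ e₂ = -1) ∧ (e₃ = 1 ∨ e₃ = -1) ∧ (e₄ = 1 ∨ e₄ = -1) := by
  refine ⟨_, _, _, _, rfl, rfl, rfl, rfl, ?_⟩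
  decide +kernel

/-- **the highest root group is characteristic in `U`** -/
theorem Lc_four (g : GL chevD4.Idx F) : g ∈ Lc (chevD4.posUnipotent F) 4 ↔ ∃ t, xG 23 t = g := by
  constructor
  · intro hg
    have h1 := Lc_le 4 hg
    have h2 : Subgroup.closure (GS F (4 + 1)) ≤ chevD4.rootSubgroup F 23 := by
      rw [Subgroup.closure_le]
      rintro g ⟨r, h1, h2, h3, t, rfl⟩
      rw [ht_five r (mem_range' h1 h2) h3]
      exact xG_mem_rootSubgroup _ _
    obtain ⟨t, ht⟩ := mem_rootSubgroup.1 (h2 h1)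
    exact ⟨t, ht.symm⟩
  · rintro ⟨t, rfl⟩
    obtain ⟨e₁, e₂, e₃, e₄, c1, c2, c3, c4, s1, s2, s3, s4⟩ := cm_chain
    have h0 : ∀ t : F, xG 18 t ∈ Lc (chevD4.posUnipotent F) 0 := fun t => xG_mem_U (by norm_num) (by norm_num) t
    have h1 := step (F := F) (by norm_num) (by norm_num) (by norm_num) (by norm_num) (by norm_num) c1 s1 h0
    have h2 := step (F := F) (by norm_num) (by norm_num) (by norm_num) (by norm_num) (by norm_num) c2 s2 h1
    have h3 := step (F := F) (by norm_num) (by norm_num) (by norm_num) (by norm_num) (by norm_num) c3 s3 h2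
    exact step (F := F) (by norm_num) (by norm_num) (by norm_num) (by norm_num) (by norm_num) c4 s4 h3 t

/-! ### the action of `U`, `H` and `N` -/

/-- `U` centralises the highest root group -/
theorem comm_top {u : GL chevD4.Idx F} (hu : u ∈ chevD4.posUnipotent F) (t : F) : u * xG 23 t * u⁻¹ = xG 23 t := by
  rw [← closure_GS_one] at hu
  have h6 : GS F 6 = ∅ := by
    rw [Set.eq_empty_iff_forall_notMem]
    rintro g ⟨r, h1, h2, h3, -⟩
    have h : ∀ r ∈ List.range' 12 12, hgt r < 6 := by decide +kernel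
    have := h r (mem_range' h1 h2)
    omega
  have h1 : ∀ u ∈ GS F 1, u * xG 23 t = xG 23 t * u := by
    intro u hu
    have h2 := comm_mem hu (show xG 23 t ∈ GS F 5 from ⟨23, by norm_num, by norm_num, by decide +kernel, t, rfl⟩)
    rw [h6, Subgroup.closure_empty, Subgroup.mem_bot, commutatorElement_eq_one_iff_mul_comm] at h2
    exact h2
  have h2 : Subgroup.closure (GS F 1) ≤ Subgroup.centralizer {xG 23 t} := by
    rw [Subgroup.closure_le]
    intro u hu
    rw [SetLike.mem_coe, Subgroup.mem_centralizer_singleton_iff]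
    exact (h1 u hu)
  have h3 := h2 hu
  rw [Subgroup.mem_centralizer_singleton_iff] at h3
  rw [h3, mul_inv_cancel_right]

theorem chi_unit (c : Fin 4 → Fˣ) (s : ℕ) : ∃ v : Fˣ, (v : F) = chi c s := ⟨Units.mk0 _ (chi_ne_zero c s), rfl⟩

/-- the torus acts on every root group by a scalar -/
theorem conj_of_mem_H {h : GL chevD4.Idx F} (hh : h ∈ chevD4.diagonalSubgroup F) {s : ℕ} (hs : s < 24) :
    ∃ v : Fˣ, ∀ t : F, h * xG s t * h⁻¹ = xG s (v * t) := by
  obtain ⟨c, rfl⟩ := diagonal_le_torus F hh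
  exact ⟨Units.mk0 _ (chi_ne_zero c s), fun t => torG_conj c hs t⟩

/-- `B` acts on the highest root group by scalars -/
theorem conj_of_mem_B {b : GL chevD4.Idx F} (hb : b ∈ chevD4.borelSubgroup F) :
    ∃ v : Fˣ, ∀ t : F, b * xG 23 t * b⁻¹ = xG 23 (v * t) := by
  rw [← d4rgd_B] at hb
  obtain ⟨u, hu, h, hh, rfl⟩ := (d4rgd F).exists_of_mem_B hb
  rw [d4rgd_U] at hu
  obtain ⟨v, hv⟩ := conj_of_mem_H hh (show 23 < 24 by norm_num)
  refine ⟨v, fun t => ?_⟩
  have e : u * h * xG 23 t * (u * h)⁻¹ = u * (h * xG 23 t * h⁻¹) * u⁻¹ := by group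
  rw [e, hv, comm_top hu]

/-- `N` permutes the root groups -/
theorem conj_of_mem_N {n : GL chevD4.Idx F} (hn : n ∈ chevD4.monomialSubgroup F) {s : ℕ} (hs : s < 24) :
    ∃ r, r < 24 ∧ ∃ v : Fˣ, ∀ t : F, n * xG s t * n⁻¹ = xG r (v * t) := by
  rw [← d4rgd_N] at hn
  obtain ⟨l, h, hh, rfl⟩ := (d4rgd F).exists_nw_of_mem_N hn
  obtain ⟨v, hv⟩ := conj_of_mem_H hh hs
  have key : ∀ l : List (Fin 4), ∃ r, r < 24 ∧ ∃ v : Fˣ, ∀ t : F,
      (d4rgd F).nw l * xG s t * ((d4rgd F).nw l)⁻¹ = xG r (v * t) := by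
    intro l
    induction l with
    | nil =>
      refine ⟨s, hs, 1, fun t => ?_⟩
      rw [RootData.RGD.nw_nil, one_mul, inv_one, mul_one, Units.val_one, one_mul]
    | cons i l ih =>
      obtain ⟨r, hr, v, hv⟩ := ih
      have he : ((eta i.val r : ℤ) : F) ≠ 0 := by
        rcases eta_cases i.2 hr with h | h
        · rw [h]; simp
        · rw [h]; simp
      refine ⟨rfl' i.val r, rfl'_lt i.2 hr, Units.mk0 _ he * v, fun t => ?_⟩
      rw [RootData.RGD.nw_cons]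
      have e : (d4rgd F).n i * (d4rgd F).nw l * xG s t * ((d4rgd F).n i * (d4rgd F).nw l)⁻¹ =
          nG F i.val * ((d4rgd F).nw l * xG s t * ((d4rgd F).nw l)⁻¹) * (nG F i.val)⁻¹ := by
        rw [d4rgd_n]; group
      rw [e, hv, nG_conj i.2 hr, Units.val_mul, Units.val_mk0, mul_assoc]
  obtain ⟨r, hr, v', hv'⟩ := key l
  refine ⟨r, hr, v' * v, fun t => ?_⟩
  have e : (d4rgd F).nw l * h * xG s t * ((d4rgd F).nw l * h)⁻¹ =
      (d4rgd F).nw l * (h * xG s t * h⁻¹) * ((d4rgd F).nw l)⁻¹ := by group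
  rw [e, hv, hv', Units.val_mul, mul_assoc]

/-- Bruhat decomposition -/
theorem bruhat {g : GL chevD4.Idx F} (hg : g ∈ chevD4.group F) : ∃ b ∈ chevD4.borelSubgroup F,
    ∃ n ∈ chevD4.monomialSubgroup F, ∃ b' ∈ chevD4.borelSubgroup F, g = b * n * b' := by
  obtain ⟨n, hn, h⟩ := Cfsg.Agent.S0308.result ((d4rgd F).bnPair (chevD4.group F) (d4rgd_G F).symm) ⟨g, hg⟩
  obtain ⟨x, hx, y, hy, e⟩ := DoubleCoset.mem_doubleCoset.1 h
  refine ⟨x, ?_, n, ?_, y, ?_, congrArg Subtype.val e⟩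
  · rw [← d4rgd_B]; exact hx
  · rw [← d4rgd_N]; exact hn
  · rw [← d4rgd_B]; exact hy

end Cfsg.Agent.H87.OC
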